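import Cfsg.Agent.H107.AutU.Main
import Cfsg.Agent.H443.XC.Defs

/-!
# S4791 + S4927: `CycOut` for the unitary groups (helper107)

* `cycOut_of`, `cycOut_congr` : general facts (`D` normal in `Aut(S)`, `Aut(S) / D` cyclic);
* `cyc_psu` : the row `PSU`.
-/

set_option autoImplicit false

namespace Cfsg.Agent.H107.XC

open Cfsg Subgroup Cfsg.Agent.H443.XC

universe u v

/-- it is enough to treat the elements `δ` of a normal subgroup `D` with cyclic quotient such that `δ ^ m` is inner,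
`p ∤ m` -/
theorem cycOut_of {p : ℕ} [Fact p.Prime] {S : Type u} [Group S] [Finite S] (D : Subgroup (MulAut S)) [D.Normal]
    (hcyc : IsCyclic (MulAut S ⧸ D))
    (h : ∀ (P : Sylow p S), ∀ δ ∈ D, ∀ m : ℕ, ¬ p ∣ m → δ ^ m ∈ (MulAut.conj : S →* MulAut S).range →
      ∃ s : S, ∀ x ∈ (P : Subgroup S), δ x = s * x * s⁻¹) : CycOut p S := by
  intro P A hA hAp
  obtain ⟨⟨_, α, hα, rfl⟩, hg⟩ := IsCyclic.exists_generator (α := A.map (QuotientGroup.mk' D))
  refine ⟨α, hα, fun β hβ => ?_⟩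
  obtain ⟨k, hk⟩ := mem_powers_iff_mem_zpowers.2 (hg ⟨QuotientGroup.mk' D β, β, hβ, rfl⟩)
  have hk' : QuotientGroup.mk' D (α ^ k) = QuotientGroup.mk' D β := by
    rw [map_pow]
    exact congrArg Subtype.val hk
  have hδD : β * (α ^ k)⁻¹ ∈ D := by
    rw [← QuotientGroup.eq_one_iff, QuotientGroup.mk_mul, QuotientGroup.mk_inv, mul_inv_eq_one]
    exact hk'.symm
  have hδA : β * (α ^ k)⁻¹ ∈ A := A.mul_mem hβ (A.inv_mem (A.pow_mem hα k))
  have hn : ((MulAut.conj : S →* MulAut S).range).Normal := by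
    refine ⟨?_⟩
    rintro _ ⟨s, rfl⟩ φ
    refine ⟨φ s, ?_⟩
    apply MulEquiv.ext
    intro x
    rw [MulAut.conj_apply, MulAut.mul_apply, MulAut.mul_apply, MulAut.conj_apply, map_mul, map_mul, map_inv,
      MulAut.apply_inv_self]
  have h1 := Subgroup.pow_index_mem (((MulAut.conj : S →* MulAut S).range).subgroupOf A) ⟨_, hδA⟩
  obtain ⟨s, hs⟩ := h (P.mapSurjective (f := (α ^ k : MulAut S).toMonoidHom) (MulEquiv.surjective _)) _ hδD
    ((MulAut.conj : S →* MulAut S).range.relIndex A) hAp h1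
  refine ⟨k, s, fun x hx => ?_⟩
  have h2 := hs ((α ^ k) x) ⟨x, hx, rfl⟩
  rw [← h2, MulAut.mul_apply, MulAut.inv_apply_self]

theorem cycOut_congr {p : ℕ} [Fact p.Prime] {S : Type u} {S' : Type v} [Group S] [Finite S] [Group S'] (e : S ≃* S')
    (h : CycOut p S') : CycOut p S := by
  intro P A hA hAp
  have hfin : Finite S' := Finite.of_equiv S e.toEquiv
  obtain ⟨P', hP'⟩ : ∃ P' : Sylow p S', (P' : Subgroup S') = (P : Subgroup S).map (e : S →* S') :=
    ⟨P.mapSurjective (f := (e : S →* S')) e.surjective, rfl⟩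
  let c : MulAut S ≃* MulAut S' := MulAut.congr e
  have hc : ∀ (γ : MulAut S) (x : S), c γ (e x) = e (γ x) := by
    intro γ x
    change e (γ (e.symm (e x))) = _
    rw [e.symm_apply_apply]
  have hrange : (MulAut.conj : S' →* MulAut S').range = (MulAut.conj : S →* MulAut S).range.map (c : MulAut S →* MulAut S') := by
    ext γ
    constructor
    · rintro ⟨s', rfl⟩
      obtain ⟨s, rfl⟩ := e.surjective s'
      refine ⟨MulAut.conj s, ⟨s, rfl⟩, ?_⟩
      apply MulEquiv.ext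
      intro y
      obtain ⟨x, rfl⟩ := e.surjective y
      change c (MulAut.conj s) (e x) = _
      rw [hc, MulAut.conj_apply, MulAut.conj_apply, map_mul, map_mul, map_inv]
    · rintro ⟨_, ⟨s, rfl⟩, rfl⟩
      refine ⟨e s, ?_⟩
      apply MulEquiv.ext
      intro y
      obtain ⟨x, rfl⟩ := e.surjective y
      change _ = c (MulAut.conj s) (e x)
      rw [hc, MulAut.conj_apply, MulAut.conj_apply, map_mul, map_mul, map_inv]
  obtain ⟨_, ⟨α, hα, rfl⟩, hgen⟩ := h P' (A.map (c : MulAut S →* MulAut S')) (by rw [hrange]; exact Subgroup.map_mono hA)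
    (by
      rw [hrange, Subgroup.relIndex_map_map_of_injective _ _ c.injective]
      exact hAp)
  refine ⟨α, hα, fun β hβ => ?_⟩
  obtain ⟨k, s', hs'⟩ := hgen _ ⟨β, hβ, rfl⟩
  refine ⟨k, e.symm s', fun x hx => ?_⟩
  have h1 := hs' (e x) (by rw [hP']; exact ⟨x, hx, rfl⟩)
  have h2 : ((c : MulAut S →* MulAut S') α) ^ k = c (α ^ k) := by
    rw [map_pow]
    rfl
  rw [h2] at h1
  change c β (e x) = s' * (c (α ^ k)) (e x) * s'⁻¹ at h1
  rw [hc, hc] at h1
  apply e.injective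
  rw [h1, map_mul, map_mul, map_inv, e.apply_symm_apply]

section psu

open Matrix Cfsg.Agent.LieClassical.HermBasic Cfsg.Agent.LieClassical.HermSiegel
  Cfsg.Agent.ClassicalGeometry.PSUAutCount Cfsg.Agent.Schreier.PSU Cfsg.Agent.H107.AutU
open Cfsg.Agent.ClassicalGeometry.UnitAutBasic (pr pr_surjective)

/-- the elements of `PGU_n(q)` of order prime to `p` modulo `PSU_n(q)` centralize a Sylow `p`-subgroup up to inner
automorphisms -/
theorem psu_hull {p : ℕ} [hp : Fact p.Prime] (hp2 : p ≠ 2) {F : Type*} [Field F] [Fintype F] {q n : ℕ}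
    (hF : Fintype.card F = q ^ 2) (hn : 3 ≤ n) (hpF : (p : F) ≠ 0)
    (P : Sylow p (PSU n F q)) (B : GU n F q) {m : ℕ} (hm : ¬ p ∣ m)
    (hx : (f₁ B : MulAut (PSU n F q)) ^ m ∈ (MulAut.conj : PSU n F q →* MulAut (PSU n F q)).range) :
    ∃ s : PSU n F q, ∀ x ∈ (P : Subgroup (PSU n F q)), (f₁ B : MulAut (PSU n F q)) x = s * x * s⁻¹ := by
  classical
  have hfin : Finite (SU n F q) := Finite.of_injective (mat : SU n F q → _) mat_injective
  obtain ⟨x, hx⟩ := hx
  obtain ⟨g, rfl⟩ := pr_surjective x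
  obtain ⟨Q, hQ, hQP⟩ := H845.KB.exists_lift_sylow (pr n F q) pr_surjective P
  -- `B ^ m = c g`
  obtain ⟨G0, hG0, hG⟩ := ClassicalGeometry.HermOrtho.exists_GU_of_isometry hF (M := mat g)
    (fun u v => herm_act g u v)
  let G : GU n F q := ⟨G0, hG0⟩
  have hGm : gm G = mat g := hG
  have h1 : toAut G 1 = toAut (B ^ m) 1 := by
    have e1 := f₁_eq_conj G g hGm
    have e2 : (f₁ (B ^ m) : MulAut (PSU n F q)) = MulAut.conj (pr n F q g) := by rw [map_pow]; exact hx.symm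
    exact e1.trans e2.symm
  obtain ⟨-, c, hc, hcm⟩ := eq_of_toAut_eq hF hn h1
  have hc0 : c ≠ 0 := by
    rintro rfl
    rw [zero_mul] at hc
    exact zero_ne_one hc
  have h2 : (dt n F q B) ^ m = (Units.mk0 c hc0) ^ n := by
    rw [← map_pow]
    apply Units.ext
    rw [coe_dt, hcm, hGm, Matrix.det_smul, Fintype.card_fin, Units.val_pow_eq_pow_val, Units.val_mk0]
    have h3 : (mat g).det = 1 := (g : SpecialLinearGroup (Fin n) F).det_coe
    rw [h3, mul_one]
  obtain ⟨a, C, hC1, hC2⟩ := exists_cent hp2 hF (by omega) hpF hQ (dt_norm hF B)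
  -- Bezout
  have hcop : IsCoprime ((p ^ a : ℕ) : ℤ) (m : ℤ) := by
    rw [Nat.isCoprime_iff_coprime]
    exact Nat.Coprime.pow_left _ ((Nat.Prime.coprime_iff_not_dvd hp.out).2 hm)
  obtain ⟨u, v, huv⟩ := hcop
  have hcv : c ^ v * (c ^ v) ^ q = 1 := by
    rw [← zpow_natCast (c ^ v), ← _root_.zpow_mul, mul_comm v, _root_.zpow_mul, ← mul_zpow, zpow_natCast, hc, _root_.one_zpow]
  let D : GU n F q := sc n ⟨c ^ v, hcv⟩ * C ^ u
  have hD : dt n F q D = dt n F q B := by
    have e1 : dt n F q (sc n ⟨c ^ v, hcv⟩) = (Units.mk0 c hc0 ^ v) ^ n := by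
      apply Units.ext
      rw [dt_sc, Units.val_pow_eq_pow_val, Units.val_zpow_eq_zpow_val, Units.val_mk0]
    have e2 : (Units.mk0 c hc0 ^ v) ^ n = dt n F q B ^ (v * (m : ℤ)) := by
      rw [← zpow_natCast, ← _root_.zpow_mul, mul_comm v (n : ℤ), _root_.zpow_mul, zpow_natCast, ← h2, ← zpow_natCast, ← _root_.zpow_mul,
        mul_comm]
    rw [map_mul, map_zpow, hC2, e1, e2, ← zpow_natCast, ← _root_.zpow_mul, ← _root_.zpow_add, mul_comm ((p ^ a : ℕ) : ℤ) u,
      add_comm, huv, zpow_one]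
  obtain ⟨s, hs⟩ := exists_conj_of_dt (B * D⁻¹) (by rw [map_mul, map_inv, hD, mul_inv_cancel])
  refine ⟨pr n F q s, fun x hx => ?_⟩
  obtain ⟨t, ht, rfl⟩ := hQP x hx
  have h3 : (f₁ D : MulAut (PSU n F q)) (pr n F q t) = pr n F q t := by
    have e1 : (f₁ D : MulAut (PSU n F q)) = (f₁ C) ^ u := by
      rw [f₁_sc_mul, map_zpow]
    have e2 : (f₁ C : MulAut (PSU n F q)) ∈ MulAction.stabilizer (MulAut (PSU n F q)) (pr n F q t) := f₁_fix (hC1 t ht)
    rw [e1]
    exact Subgroup.zpow_mem _ e2 u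
  have h4 : (f₁ B : MulAut (PSU n F q)) = MulAut.conj (pr n F q s) * f₁ D := by
    rw [← hs, ← map_mul, inv_mul_cancel_right]
  rw [h4, MulAut.mul_apply, h3, MulAut.conj_apply]

/-- `CycOut` for `PSU_n(q)` -/
theorem cycOut_psu {p : ℕ} [hp : Fact p.Prime] (hp2 : p ≠ 2) {F : Type*} [Field F] [Fintype F] {q n : ℕ}
    (hF : Fintype.card F = q ^ 2) (hn : 3 ≤ n) (h32 : ¬ (n = 3 ∧ q = 2)) (hpF : (p : F) ≠ 0) :
    CycOut p (PSU n F q) := by
  classical
  have hfin : Finite (SU n F q) := Finite.of_injective (mat : SU n F q → _) mat_injective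
  have hfin' : Finite (PSU n F q) := Finite.of_surjective (pr n F q) pr_surjective
  have hN : ((f₁ (F := F) (q := q) (n := n)).range).Normal := by
    have := H202.Psu.inndiag_normal hF hn h32
    rwa [H202.Psu.inndiag_eq] at this
  refine cycOut_of (f₁ (F := F) (q := q) (n := n)).range ?_ ?_
  · have hc : IsCyclic (F ≃+* F) := LieRecognition.FieldSemilinear.isCyclic_ringAut F
    refine isCyclic_of_surjective ((QuotientGroup.mk' (f₁ (F := F) (q := q) (n := n)).range).comp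
      (f₂ (F := F) (q := q) (n := n))) ?_
    intro y
    obtain ⟨α, rfl⟩ := QuotientGroup.mk'_surjective _ y
    obtain ⟨A, ρ, rfl⟩ := ClassicalGeometry.PSUAutMain.exists_toAut hF hn h32 α
    refine ⟨ρ, ?_⟩
    rw [toAut_eq, map_mul]
    have h1 : (QuotientGroup.mk' (f₁ (F := F) (q := q) (n := n)).range) (f₁ A : MulAut (PSU n F q)) = 1 :=
      (QuotientGroup.eq_one_iff _).2 ⟨A, rfl⟩
    rw [h1, one_mul]
    rfl
  · rintro P _ ⟨B, rfl⟩ m hm hx
    exact psu_hull hp2 hF hn hpF P B hm hx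

end psu

variable {p : ℕ} [hp : Fact p.Prime]

/-- **`CycOut` for the unitary groups** -/
theorem cyc_psu {S : Type u} [Group S] {r : ℕ} [hr : Fact r.Prime] (hrp : r ≠ p) (h5 : 5 ≤ p) (h : IsPSUChar r S) :
    CycOut p S := by
  obtain ⟨F, iF, iF', iC, n, q, hF, hn, h32, ⟨e⟩⟩ := h
  have hfin : Finite (SU n F q) :=
    Finite.of_injective (Cfsg.Agent.LieClassical.HermSiegel.mat : SU n F q → _)
      Cfsg.Agent.LieClassical.HermSiegel.mat_injective
  have hfin' : Finite (PSU n F q) := Finite.of_surjective (Cfsg.Agent.ClassicalGeometry.UnitAutBasic.pr n F q)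
    Cfsg.Agent.ClassicalGeometry.UnitAutBasic.pr_surjective
  have hfinS : Finite S := Finite.of_equiv _ e.symm.toEquiv
  refine cycOut_congr e (cycOut_psu (by omega) hF hn h32 ?_)
  intro h0
  rw [CharP.cast_eq_zero_iff F r p] at h0
  exact hrp ((Nat.prime_dvd_prime_iff_eq hr.out hp.out).1 h0)

end Cfsg.Agent.H107.XC
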